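import Groth.Agent.Ega4fib.H117.EquidimDim
import Groth.Agent.Ega4fib.H118.FibreStalkDim
import Groth.Agent.Ega4fib.H174.EquidimCrit
import Groth.Agent.Ega4A.EquidimFlat

/-!
# Dimension of the local ring of the fibre at a point of equidimensionality

`dim_fibre_add_rtd_eq`: if `f` is equidimensional at `x`, with fibres of dimension `e`, then
`dim O_{X_y,x} + trdeg κ(x)/κ(y) = e`.
-/

set_option autoImplicit false
open CategoryTheory AlgebraicGeometry Limits TopologicalSpace IsLocalRing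
universe u

namespace Groth.Agent.Ega4fib.H157.FibreEq

open Groth.Agent.CycB Groth.Agent.CycB.RelDim Groth.Agent.CycB.LocQuot Groth.Agent

/-- For a scheme `X` locally of finite type over a field there is a generization `w` of `x` with
`dim O_{X,x} + trdeg κ(x) = trdeg κ(w)`. -/
theorem exists_rtd_eq_of_field {X : Scheme.{u}} {K : Type u} [Field K]
    (g : X ⟶ Spec (CommRingCat.of K)) [LocallyOfFiniteType g] (x : X) (c t : ℕ)
    (hc : ringKrullDim (X.presheaf.stalk x) = c) (ht : rtd g x = t) :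
    ∃ w : X, w ⤳ x ∧ rtd g w = ((c + t : ℕ) : Cardinal.{u}) := by
  have : IsLocallyNoetherian X := LocallyOfFiniteType.isLocallyNoetherian g
  have : FiniteRingKrullDim (X.presheaf.stalk x) := inferInstance
  obtain ⟨𝔭, h𝔭, hd⟩ := Ega4A.EquidimFlat.exists_minimalPrimes_dim_eq' (R := X.presheaf.stalk x)
  obtain ⟨w, hw, rfl, -⟩ := H117.EquidimDim.exists_point_of_mem_minimalPrimes x 𝔭 h𝔭
  obtain ⟨b, hb⟩ := Cardinal.lt_aleph0.1 (rtd_lt_aleph0 g w)
  refine ⟨w, hw, ?_⟩
  obtain ⟨m, n, hm, hn, e⟩ := H117.DimStalk.dimension_formula g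
    (CycA.SetupField.isUniversallyCatenary_stalk_Spec K (g x)) hw
  have hn0 : n ≤ 0 := by
    have h1 : ringKrullDim (Cyc.LocQuot (g x) (g w) (hw.map g.continuous)) ≤
        ringKrullDim ((Spec (CommRingCat.of K)).presheaf.stalk (g x)) :=
      ringKrullDim_quotient_le _
    have h2 : ringKrullDim ((Spec (CommRingCat.of K)).presheaf.stalk (g x)) ≤ 0 := by
      rw [ringKrullDim_stalk_eq_coheight]
      have : Order.coheight (g x) = 0 := by
        rw [Order.coheight_eq_zero]
        intro z hz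
        have : z = g x := Subsingleton.elim (α := PrimeSpectrum K) z (g x)
        rw [this]
      rw [this]
      rfl
    have h3 := h1.trans h2
    rw [← hn] at h3
    exact_mod_cast h3
  have hn0' : n = 0 := le_antisymm hn0 bot_le
  subst hn0'
  have hm' : ((m : ℕ∞) : WithBot ℕ∞) = ((c : ℕ∞) : WithBot ℕ∞) := by
    rw [hm]
    exact hd.trans hc
  have hm'' : m = c := WithBot.coe_injective hm'
  rw [hm'', ht] at e
  have e' : ((c : ℕ) : Cardinal.{u}) + t = rtd g w := by
    simpa using e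
  rw [← e']
  push_cast
  rfl

/-- There is a generization `w` of `x` in its fibre with
`dim O_{X_y,x} + trdeg κ(x)/κ(y) = trdeg κ(w)/κ(y)`. -/
theorem exists_rtd_eq {X Y : Scheme.{u}} (f : X ⟶ Y) [LocallyOfFiniteType f] (x : X) (c t : ℕ)
    (hc : ringKrullDim ((f.fiber (f x)).presheaf.stalk (f.asFiber x)) = c) (ht : rtd f x = t) :
    ∃ w : X, w ⤳ x ∧ f w = f x ∧ rtd f w = ((c + t : ℕ) : Cardinal.{u}) := by
  have : LocallyOfFiniteType (f.fiberToSpecResidueField (f x)) :=
    inferInstanceAs (LocallyOfFiniteType (Limits.pullback.snd f (Y.fromSpecResidueField (f x))))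
  obtain ⟨w, hw, hw'⟩ := exists_rtd_eq_of_field (K := Y.residueField (f x))
    (f.fiberToSpecResidueField (f x)) (f.asFiber x) c t hc
    ((rtd_fiberToSpecResidueField f (f x) (f.asFiber x)).trans (by
      rw [Scheme.Hom.fiberι_asFiber]; exact ht))
  refine ⟨f.fiberι (f x) w, ?_, ?_, ?_⟩
  · have := hw.map (f.fiberι (f x)).continuous
    rwa [Scheme.Hom.fiberι_asFiber] at this
  · have : f.fiberι (f x) w ∈ Set.range (f.fiberι (f x)) := ⟨w, rfl⟩
    rw [Scheme.Hom.range_fiberι] at this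
    exact this
  · rw [← rtd_fiberToSpecResidueField]
    exact hw'

/-- If `f` is equidimensional at `x` with fibres of dimension `e`, then
`dim O_{X_y,x} + trdeg κ(x)/κ(y) = e`. -/
theorem dim_fibre_add_rtd_eq {X Y : Scheme.{u}} (f : X ⟶ Y) [LocallyOfFiniteType f] (x : X)
    (h : EGA43.IsEquidimAt f x) (e t c : ℕ)
    (he : ∀ ζ : X, ζ ⤳ x → (∀ ζ' : X, ζ' ⤳ ζ → ζ' = ζ) → rtd f ζ = e)
    (ht : rtd f x = t)
    (hc : ringKrullDim ((f.fiber (f x)).presheaf.stalk (f.asFiber x)) = c) :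
    c + t = e := by
  obtain ⟨e', U, hxU, h1, h2⟩ := Old.H32.EquidimPoint.exists_of_isEquidimAt f x h
  obtain ⟨ζ, hζ, hmax⟩ := Old.H32.EquidimPoint.exists_maximal_specializes x
  have h3 : rtd f ζ = e' := (h1 ζ (hζ.mem_open U.2 hxU) hmax).2.2
  have h4 : rtd f ζ = e := he ζ hζ hmax
  have h5 : e' = e := by
    rw [h3] at h4
    exact_mod_cast h4
  subst h5
  apply le_antisymm
  · obtain ⟨w, hw, -, hw'⟩ := exists_rtd_eq f x c t hc ht
    have h6 := h2 w (hw.mem_open U.2 hxU)
    rw [hw'] at h6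
    exact_mod_cast h6
  · obtain ⟨w, hw1, hw2, hw3, hw4⟩ := H174.EquidimCrit.exists_maximal_fib f hζ
    have h6 := H174.EquidimCrit.rtd_le_of_maximal_fib f hw1 hw4
    have h7 := H118.FibreStalkDim.rtd_le_add f hw2 hw3 c t hc ht
    rw [h3] at h6
    exact_mod_cast h6.trans h7

end Groth.Agent.Ega4fib.H157.FibreEq
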